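import Cfsg.Agent.H50.RG.StatMain

/-!
# UT2 (UX, S5716): abstract second moment argument (helper50)
-/

set_option autoImplicit false

namespace Cfsg.Agent.H50.Ux

open Cfsg.Agent.H50.RG (second_moment)

/-- second moment, abstract version -/
theorem moment {ι : Type*} [Fintype ι] (I : Finset ℕ) (g a : ℕ → ι → ℕ) (n : ℕ) (b : ℕ → ℕ → ι → ℕ) (x : ℕ → ℝ)
    (w : ℕ → ℕ → ℝ) {η : ℝ} (hη0 : 0 ≤ η) (hη1 : η ≤ 1) (hx0 : ∀ e ∈ I, 0 ≤ x e) (hga : ∀ e ∈ I, ∀ y, g e y ≤ a e y)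
    (hg1 : ∀ e ∈ I, ∀ y, g e y ≤ 2) (hag : ∀ e ∈ I, ∀ y, a e y ≤ g e y + ∑ j ∈ Finset.range n, b e j y)
    (hfirst : ∀ e ∈ I, ∑ y, (a e y : ℝ) = Fintype.card ι * x e)
    (hb : ∀ e ∈ I, ∀ j ∈ Finset.range n, ∑ y, (b e j y : ℝ) ≤ Fintype.card ι * (x e * w e j))
    (hw : ∀ e ∈ I, ∑ j ∈ Finset.range n, w e j ≤ η)
    (hcross : ∀ e ∈ I, ∀ e' ∈ I, e ≠ e' → ∑ y, (a e y : ℝ) * a e' y ≤ Fintype.card ι * (x e * x e')) :
    (Nat.card {y // ∑ e ∈ I, g e y = 0} : ℝ) * ((1 - η) * ∑ e ∈ I, x e) ^ 2 ≤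
      Fintype.card ι * (2 * (∑ e ∈ I, x e) + 2 * η * (∑ e ∈ I, x e) ^ 2) := by
  classical
  have hN0 : (0 : ℝ) ≤ Fintype.card ι := Nat.cast_nonneg _
  have hmean : ∀ e ∈ I, Fintype.card ι * ((1 - η) * x e) ≤ ∑ y, (g e y : ℝ) := by
    intro e he
    have h1 : (∑ y, (a e y : ℝ)) ≤ (∑ y, (g e y : ℝ)) + ∑ j ∈ Finset.range n, Fintype.card ι * (x e * w e j) := by
      have h2 : (∑ y, (a e y : ℝ)) ≤ ∑ y, ((g e y : ℝ) + ∑ j ∈ Finset.range n, (b e j y : ℝ)) := by
        refine Finset.sum_le_sum fun y _ => ?_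
        exact_mod_cast hag e he y
      refine h2.trans ?_
      rw [Finset.sum_add_distrib, Finset.sum_comm]
      exact add_le_add le_rfl (Finset.sum_le_sum fun j hj => hb e he j hj)
    rw [hfirst e he, ← Finset.mul_sum, ← Finset.mul_sum] at h1
    have h3 : x e * ∑ j ∈ Finset.range n, w e j ≤ x e * η := mul_le_mul_of_nonneg_left (hw e he) (hx0 e he)
    have h4 := mul_le_mul_of_nonneg_left h3 hN0
    nlinarith
  let R : ι → ℕ := fun y => ∑ e ∈ I, g e y
  have hS0 : 0 ≤ ∑ e ∈ I, x e := Finset.sum_nonneg hx0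
  have hR1 : (Fintype.card ι : ℝ) * ((1 - η) * ∑ e ∈ I, x e) ≤ ∑ y, (R y : ℝ) := by
    have h1 : ∑ y, (R y : ℝ) = ∑ e ∈ I, ∑ y, (g e y : ℝ) := by
      rw [Finset.sum_comm]
      refine Finset.sum_congr rfl fun y _ => ?_
      simp only [R]
      push_cast
      rfl
    rw [h1, Finset.mul_sum, Finset.mul_sum]
    exact Finset.sum_le_sum fun e he => hmean e he
  have hR2 : ∑ y, (R y : ℝ) ^ 2 ≤ Fintype.card ι * (2 * (∑ e ∈ I, x e) + (∑ e ∈ I, x e) ^ 2) := by
    have h1 : ∀ y, (R y : ℝ) ^ 2 = ∑ e ∈ I, ∑ e' ∈ I, (g e y : ℝ) * g e' y := by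
      intro y
      simp only [R]
      push_cast
      rw [pow_two, Finset.sum_mul_sum]
    have h2 : ∑ y, (R y : ℝ) ^ 2 = ∑ e ∈ I, ∑ e' ∈ I, ∑ y, (g e y : ℝ) * g e' y := by
      rw [Finset.sum_congr rfl fun y _ => h1 y, Finset.sum_comm]
      refine Finset.sum_congr rfl fun e _ => ?_
      rw [Finset.sum_comm]
    rw [h2]
    have h3 : ∀ e ∈ I, ∀ e' ∈ I, ∑ y, (g e y : ℝ) * g e' y ≤
        Fintype.card ι * (x e * x e' + if e = e' then 2 * x e else 0) := by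
      intro e he e' he'
      by_cases h : e = e'
      · subst h
        rw [if_pos rfl]
        have h4 : ∑ y, (g e y : ℝ) * g e y ≤ ∑ y, 2 * (a e y : ℝ) := by
          refine Finset.sum_le_sum fun y _ => ?_
          have h5 : (g e y : ℝ) ≤ 2 := by exact_mod_cast hg1 e he y
          have h6 : (g e y : ℝ) ≤ a e y := by exact_mod_cast hga e he y
          exact mul_le_mul h5 h6 (Nat.cast_nonneg _) (by norm_num)
        rw [← Finset.mul_sum, hfirst e he] at h4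
        refine h4.trans ?_
        have := mul_nonneg (hx0 e he) (hx0 e he)
        nlinarith
      · rw [if_neg h, add_zero]
        refine le_trans ?_ (hcross e he e' he' h)
        refine Finset.sum_le_sum fun y _ => ?_
        have h5 : (g e y : ℝ) ≤ a e y := by exact_mod_cast hga e he y
        have h6 : (g e' y : ℝ) ≤ a e' y := by exact_mod_cast hga e' he' y
        exact mul_le_mul h5 h6 (Nat.cast_nonneg _) (Nat.cast_nonneg _)
    refine (Finset.sum_le_sum fun e he => Finset.sum_le_sum fun e' he' => h3 e he e' he').trans (le_of_eq ?_)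
    simp only [← Finset.mul_sum, Finset.sum_add_distrib]
    congr 1
    rw [pow_two, Finset.sum_mul_sum, add_comm]
    congr 1
    · rw [Finset.mul_sum]
      refine Finset.sum_congr rfl fun e he => ?_
      rw [Finset.sum_ite_eq, if_pos he]
    · refine Finset.sum_congr rfl fun e _ => ?_
      rw [Finset.mul_sum]
  exact second_moment R hS0 hη0 hη1 hR1 hR2

end Cfsg.Agent.H50.Ux
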