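import Cfsg.Agent.H50.Ux.Block
import Cfsg.Agent.H50.Ux.Moment

/-!
# UT2 (UX, S5716): the second moment (helper50)
-/

set_option autoImplicit false
set_option linter.unusedSectionVars false

namespace Cfsg.Agent.H50.Ux

open Module Cfsg.Agent.H847.Bs Cfsg.Agent.LieClassical.OrthCore
open Cfsg.Agent.H440.Bs (perp mem_perp mem_perp')
open Cfsg.Agent.H141.Ux (Kl ParE Pp StE)
open Cfsg.Agent.H50.RG (Ad)

/-- the proportion of good isometries in the model block -/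
noncomputable def xx {F V : Type} [Field F] [AddCommGroup V] [Module F V] (Φ : Frm F V) (e : ℕ) (E₀ : Submodule F V) : ℝ :=
  (Nat.card (S0 Φ e E₀) : ℝ) / Nat.card {t : E₀ ≃ₗ[F] E₀ // IsoP (P0 Φ E₀) t}

theorem core (hYb : Yb) {F V : Type} [Field F] [Finite F] [AddCommGroup V] [Module F V] [Module.Finite F V]
    {Φ : Frm F V} {G : Subgroup (V ≃ₗ[F] V)} {N t : ℕ} (h : Kl Φ G N t) (hFo : Fo Φ)
    (hW : ∀ (D : Type) [AddCommGroup D] [Module F D] [Module.Finite F D] (ψ : D →ₗ[F] V), Function.Injective ψ →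
      ¬ perp Φ (LinearMap.range ψ) ≤ LinearMap.range ψ → Wc 4 Φ G ψ)
    (I : Finset ℕ) (E₀ : ℕ → Submodule F V) (hE : ∀ e ∈ I, Φ.NdOn (E₀ e) ∧ finrank F (E₀ e) = e)
    (hn : ∀ e ∈ I, 40 * e + 40 ≤ finrank F V ∧ 20 ≤ e ∧ ¬ e ∣ finrank F V) {η : ℝ}
    (hη : ∀ e ∈ I, ∑ j ∈ Finset.range (finrank F V), 1 / (((j + 1) * e : ℕ) : ℝ) ≤ η) (hη0 : 0 ≤ 32 * η)
    (hη1 : 32 * η ≤ 1) :
    (Nat.card {y : G // ¬ ∃ e ∈ I, ∃ E, Gn Φ e (y : V ≃ₗ[F] V) E} : ℝ) *
        ((1 - 32 * η) * ∑ e ∈ I, xx Φ e (E₀ e)) ^ 2 ≤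
      Nat.card G * (2 * (∑ e ∈ I, xx Φ e (E₀ e)) + 2 * (32 * η) * (∑ e ∈ I, xx Φ e (E₀ e)) ^ 2) := by
  classical
  have : Finite V := Module.finite_of_finite F
  have : Finite (V ≃ₗ[F] V) := Cfsg.Agent.H50.RG.finite_equiv
  have hfs : Finite (Submodule F V) := finite_sub
  have := Fintype.ofFinite G
  have hG := kl_le h
  have hN := kl_nd h
  set n := finrank F V with hnn
  set S : (e : ℕ) → Set (E₀ e ≃ₗ[F] E₀ e) := fun e => S0 Φ e (E₀ e) with hS
  set J : ℕ → ℕ := fun e => Nat.card {t : E₀ e ≃ₗ[F] E₀ e // IsoP (P0 Φ (E₀ e)) t} with hJ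
  have hJ0 : ∀ e, (0 : ℝ) < J e := by
    intro e
    have : Nonempty {t : E₀ e ≃ₗ[F] E₀ e // IsoP (P0 Φ (E₀ e)) t} := ⟨⟨1, fun _ _ => rfl, fun _ => rfl⟩⟩
    have : Finite (E₀ e ≃ₗ[F] E₀ e) := Cfsg.Agent.H50.RG.finite_equiv
    exact_mod_cast Nat.card_pos
  have hxJ : ∀ e, xx Φ e (E₀ e) * J e = Nat.card (S e) := by
    intro e
    unfold xx
    rw [div_mul_cancel₀]
    exact (hJ0 e).ne'
  have hx0 : ∀ e, 0 ≤ xx Φ e (E₀ e) := fun e => div_nonneg (Nat.cast_nonneg _) (Nat.cast_nonneg _)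
  let a : ℕ → G → ℕ := fun e y => Nat.card (AP Φ (P0 Φ (E₀ e)) (y : V ≃ₗ[F] V) (S e))
  let gs : ℕ → G → Set (Submodule F V) := fun e y => {A | A ∈ AP Φ (P0 Φ (E₀ e)) (y : V ≃ₗ[F] V) (S e) ∧
    Gn Φ e (y : V ≃ₗ[F] V) A}
  let g : ℕ → G → ℕ := fun e y => Nat.card (gs e y)
  let b : ℕ → ℕ → G → ℕ := fun e j y => Nat.card (PB Φ (P0 Φ (E₀ e)) (S e) ((j + 1) * e) (y : V ≃ₗ[F] V))
  have htr : ∀ e ∈ I, ∀ φ ∈ FrP Φ (P0 Φ (E₀ e)), ∀ φ' ∈ FrP Φ (P0 Φ (E₀ e)), ∃ g ∈ G, ∀ x, g (φ x) = φ' x := by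
    intro e he
    exact tr_of_witt h (by rw [(hE e he).2]; have := hn e he; omega) (by have := hn e he; omega)
  have hgs1 : ∀ e ∈ I, ∀ y : G, g e y ≤ 1 := by
    intro e he y
    have : Subsingleton (gs e y) := by
      refine ⟨fun A A' => Subtype.ext ?_⟩
      exact Gn.unique hN (hG y.2) A'.2.2 A.2.2.irr A.2.2.dim
    exact Finite.card_le_one_iff_subsingleton.2 this
  have key := moment I g a n b (fun e => xx Φ e (E₀ e)) (fun e j => 32 * (1 / (((j + 1) * e : ℕ) : ℝ))) hη0 hη1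
    (fun e _ => hx0 e) (fun e _ y => Nat.card_mono (Set.toFinite _) fun A hA => hA.1)
    (fun e he y => (hgs1 e he y).trans one_le_two) ?_ ?_ ?_ ?_ ?_
  · rw [← Nat.card_eq_fintype_card] at key
    refine le_trans (mul_le_mul_of_nonneg_right ?_ (sq_nonneg _)) key
    have h1 : Nat.card {y : G // ¬ ∃ e ∈ I, ∃ E, Gn Φ e (y : V ≃ₗ[F] V) E} ≤
        Nat.card {y : G // ∑ e ∈ I, g e y = 0} := by
      refine Nat.card_le_card_of_injective (fun y => ⟨y.1, ?_⟩) fun y y' h => ?_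
      · rw [Finset.sum_eq_zero_iff]
        intro e he
        have : IsEmpty (gs e y.1) := ⟨fun A => y.2 ⟨e, he, A.1, A.2.2⟩⟩
        exact Nat.card_of_isEmpty
      · apply Subtype.ext
        exact congrArg (fun z : {y : G // ∑ e ∈ I, g e y = 0} => z.1) h
    exact_mod_cast h1
  · -- `a ≤ g + ∑ b`
    intro e he y
    have h20 := (hn e he).2.1
    have h1 : a e y ≤ g e y + Nat.card ↥(AP Φ (P0 Φ (E₀ e)) (y : V ≃ₗ[F] V) (S e) \ gs e y) := by
      have := Set.ncard_le_ncard_sdiff_add_ncard (AP Φ (P0 Φ (E₀ e)) (y : V ≃ₗ[F] V) (S e)) (gs e y) (Set.toFinite _)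
      rw [add_comm]
      exact this
    refine h1.trans (Nat.add_le_add_left ?_ _)
    have hch : ∀ A : ↥(AP Φ (P0 Φ (E₀ e)) (y : V ≃ₗ[F] V) (S e) \ gs e y), ∃ j : Finset.range n,
        A.1 ∈ PB Φ (P0 Φ (E₀ e)) (S e) ((j.1 + 1) * e) (y : V ≃ₗ[F] V) := by
      rintro ⟨A, hA, hng⟩
      obtain ⟨hA1, hA2, hA3, hA4⟩ := mem_AP0 (hE e he).1 (hE e he).2 hA
      have h2 : ¬ ∀ B ≤ perp Φ A, Irr (y : V ≃ₗ[F] V) B → ¬ e ∣ finrank F B := fun h2 =>
        hng ⟨hA, hA1, hA2, hA3, hA4, h2⟩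
      push Not at h2
      obtain ⟨B, hB, hBi, hdiv⟩ := h2
      obtain ⟨c, hc⟩ := hdiv
      have hc1 : 1 ≤ c := by
        rcases Nat.eq_zero_or_pos c with h3 | h3
        · exfalso
          rw [h3, mul_zero] at hc
          exact hBi.ne_bot (Submodule.finrank_eq_zero.1 hc)
        · exact h3
      obtain ⟨j, rfl⟩ : ∃ j, c = j + 1 := ⟨c - 1, by omega⟩
      have h5 : finrank F B = (j + 1) * e := by rw [hc]; ring
      refine ⟨⟨j, Finset.mem_range.2 ?_⟩, hA, B, hB, hBi, h5⟩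
      have h6 : (j + 1) * 1 ≤ (j + 1) * e := Nat.mul_le_mul_left _ (by omega)
      have h7 : finrank F B ≤ n := Submodule.finrank_le B
      omega
    choose j hj using hch
    have h2 : Nat.card ↥(AP Φ (P0 Φ (E₀ e)) (y : V ≃ₗ[F] V) (S e) \ gs e y) ≤ Nat.card (Σ j : Finset.range n,
        PB Φ (P0 Φ (E₀ e)) (S e) ((j.1 + 1) * e) (y : V ≃ₗ[F] V)) := by
      refine Nat.card_le_card_of_injective (fun A => ⟨j A, A.1, hj A⟩) ?_
      intro A A' h
      apply Subtype.ext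
      have := congrArg (fun q : (Σ j : Finset.range n,
        PB Φ (P0 Φ (E₀ e)) (S e) ((j.1 + 1) * e) (y : V ≃ₗ[F] V)) => q.2.1) h
      exact this
    refine h2.trans ?_
    rw [Nat.card_sigma, ← Finset.sum_coe_sort (Finset.range n)]
  · -- first moment
    intro e he
    have hne : (FrP Φ (P0 Φ (E₀ e))).Nonempty := ⟨(E₀ e).subtype, (E₀ e).injective_subtype, rfl⟩
    have h1 := sum_AP hG (htr e he) hne (S := S e) (fun m hm => hm.1) (cj_S0 e (E₀ e))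
    have h2 : (∑ y : G, (a e y : ℝ)) * J e = (Fintype.card G * xx Φ e (E₀ e)) * J e := by
      rw [mul_assoc, hxJ e, ← Nat.card_eq_fintype_card]
      exact_mod_cast h1
    exact mul_right_cancel₀ (hJ0 e).ne' h2
  · -- pairs
    intro e he j _
    have h20 := (hn e he).2.1
    have hk2 : 2 ≤ (j + 1) * e := by
      have h6 : (j + 1) * 2 ≤ (j + 1) * e := Nat.mul_le_mul_left _ (by omega)
      omega
    have hT := hYb F V Φ hFo ((j + 1) * e) hk2
    have h1 := sum_PB hG (cj_S0 (Φ := Φ) e (E₀ e)) (ndOn_frP (hE e he).1) (c := 4) (k := (j + 1) * e)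
      (wc_pairs hN hG (hE e he).1 (hE e he).2 (Dvd.intro_left _ rfl) (hn e he).2.2 (fun ψ => hW _ ψ)) hT
    have hk0 : (0 : ℝ) < (((j + 1) * e : ℕ) : ℝ) := by exact_mod_cast (by omega : 0 < (j + 1) * e)
    have h2 : (∑ y : G, (b e j y : ℝ)) * (J e * (((j + 1) * e : ℕ) : ℝ)) ≤
        (Fintype.card G * (xx Φ e (E₀ e) * (32 * (1 / (((j + 1) * e : ℕ) : ℝ))))) * (J e * (((j + 1) * e : ℕ) : ℝ)) := by
      have h3 : (Fintype.card G * (xx Φ e (E₀ e) * (32 * (1 / (((j + 1) * e : ℕ) : ℝ))))) *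
          (J e * (((j + 1) * e : ℕ) : ℝ)) = 8 * 4 * Fintype.card G * Nat.card (S e) := by
        rw [← hxJ e]
        field_simp
        ring
      rw [h3, ← Nat.card_eq_fintype_card]
      exact_mod_cast h1
    exact le_of_mul_le_mul_right h2 (mul_pos (hJ0 e) hk0)
  · intro e he
    rw [← Finset.mul_sum]
    exact mul_le_mul_of_nonneg_left (hη e he) (by norm_num)
  · -- mixed moments
    intro e he e' he' hne
    have h1 := cross (G := G) (cj_S0 (Φ := Φ) e (E₀ e)) (cj_S0 (Φ := Φ) e' (E₀ e')) (ndOn_frP (hE e he).1)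
      (fun y hy A hA A' hA' => by
        have h2 := mem_AP0 (hE e he).1 (hE e he).2 hA
        have h3 := mem_AP0 (hE e' he').1 (hE e' he').2 hA'
        exact orth_of_ne hN (hG hy) h2.2.2.1 h3.2.2.1 (by rw [h2.2.1, h3.2.1]; exact hne))
      (fun ψ hψ => wc_of_tr hG hψ (tr_of_witt h (by
        rw [Module.finrank_prod, (hE e he).2, (hE e' he').2]
        have := hn e he
        have := hn e' he'
        omega) (by have := hn e he; omega)))
    have h2 : (∑ y : G, (a e y : ℝ) * a e' y) * (J e * J e') ≤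
        (Fintype.card G * (xx Φ e (E₀ e) * xx Φ e' (E₀ e'))) * (J e * J e') := by
      have h3 : (Fintype.card G * (xx Φ e (E₀ e) * xx Φ e' (E₀ e'))) * (J e * J e') =
          Fintype.card G * ((Nat.card (S e) : ℝ) * Nat.card (S e')) := by
        rw [← hxJ e, ← hxJ e']
        ring
      rw [h3, ← Nat.card_eq_fintype_card]
      exact_mod_cast h1
    exact le_of_mul_le_mul_right h2 (mul_pos (hJ0 e) (hJ0 e'))

end Cfsg.Agent.H50.Ux
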