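import Cfsg.Agent.H50.Ux.Stmts
import Cfsg.Agent.H50.RG.Stat3
import Cfsg.Agent.H881.Bs.Conj

/-!
# UT2 (UX, S5716): counting frames (helper50)

* `FrP Φ P` : the frames with pull back `P`; `AP Φ P y S` : the subspaces spanned by the frames `φ` with `y φ = φ m`, `m ∈ S`;
* `gc` : the general upper bound; `first` : first moment; `pairs` : pairs of frames.
-/

set_option autoImplicit false
set_option linter.unusedSectionVars false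

namespace Cfsg.Agent.H50.Ux

open Module Cfsg.Agent.H847.Bs Cfsg.Agent.LieClassical.OrthCore
open Cfsg.Agent.H440.Bs (perp mem_perp)
open Cfsg.Agent.H50.RG (Ad card_eq_of_fib exists_comp)
open Cfsg.Agent.H881.Bs (card_le_of_fiber)

variable {F V : Type*} [Field F] [AddCommGroup V] [Module F V]
variable {X : Type*} [AddCommGroup X] [Module F X]
variable {X' : Type*} [AddCommGroup X'] [Module F X']
variable {Φ : Frm F V} {G : Subgroup (V ≃ₗ[F] V)}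

theorem finite_hom [Finite X] [Finite V] : Finite (X →ₗ[F] V) :=
  Finite.of_injective (fun φ : X →ₗ[F] V => (φ : X → V)) DFunLike.coe_injective

/-- the frames with pull back `P` -/
def FrP (Φ : Frm F V) (P : (X → X → F) × (X → F)) : Set (X →ₗ[F] V) :=
  {φ | Function.Injective φ ∧ pb Φ φ = P}

theorem pb_smul {y : V ≃ₗ[F] V} (hy : y ∈ Φ.Iso) {φ φ' : X →ₗ[F] V} (h : ∀ x, y (φ x) = φ' x) :
    pb Φ φ' = pb Φ φ := by
  refine Prod.ext ?_ ?_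
  · funext a b
    show Φ.B (φ' a) (φ' b) = Φ.B (φ a) (φ b)
    rw [← h, ← h, hy.1]
  · funext a
    show Φ.q (φ' a) = Φ.q (φ a)
    rw [← h, hy.2]

/-- `m` preserves the pull back if `y φ = φ m` -/
theorem isoP_of {y : V ≃ₗ[F] V} (hy : y ∈ Φ.Iso) {φ : X →ₗ[F] V} {m : X ≃ₗ[F] X} (h : ∀ x, y (φ x) = φ (m x)) :
    IsoP (pb Φ φ) m := by
  refine ⟨fun a b => ?_, fun a => ?_⟩
  · show Φ.B (φ (m a)) (φ (m b)) = Φ.B (φ a) (φ b)
    rw [← h, ← h, hy.1]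
  · show Φ.q (φ (m a)) = Φ.q (φ a)
    rw [← h, hy.2]

theorem pb_comp {φ : X →ₗ[F] V} {m : X ≃ₗ[F] X} : pb Φ (φ ∘ₗ (m : X →ₗ[F] X)) = pb Φ φ ↔ IsoP (pb Φ φ) m := by
  constructor
  · intro h
    refine ⟨fun a b => ?_, fun a => ?_⟩
    · exact congrFun (congrFun (congrArg Prod.fst h) a) b
    · exact congrFun (congrArg Prod.snd h) a
  · rintro ⟨h1, h2⟩
    refine Prod.ext ?_ ?_
    · funext a b
      exact h1 a b
    · funext a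
      exact h2 a

theorem FrP.comp {P : (X → X → F) × (X → F)} {φ : X →ₗ[F] V} (h : φ ∈ FrP Φ P) {m : X ≃ₗ[F] X} (hm : IsoP P m) :
    φ ∘ₗ (m : X →ₗ[F] X) ∈ FrP Φ P := by
  obtain ⟨h1, rfl⟩ := h
  exact ⟨h1.comp m.injective, pb_comp.2 hm⟩

/-- exact transitivity -/
theorem card_tr [Finite V] [Finite X] (hG : G ≤ Φ.Iso) {P : (X → X → F) × (X → F)}
    (tr : ∀ φ ∈ FrP Φ P, ∀ φ' ∈ FrP Φ P, ∃ g ∈ G, ∀ x, g (φ x) = φ' x) {φ φ' : X →ₗ[F] V} (h : φ ∈ FrP Φ P)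
    (h' : φ' ∈ FrP Φ P) :
    Nat.card (FrP Φ P) * Nat.card {y : G // ∀ x, (y : V ≃ₗ[F] V) (φ x) = φ' x} = Nat.card G := by
  have : Finite (X →ₗ[F] V) := finite_hom
  have : Finite (V ≃ₗ[F] V) := Cfsg.Agent.H50.RG.finite_equiv
  refine (card_eq_of_fib (fun y : G => (⟨((y : V ≃ₗ[F] V) : V →ₗ[F] V) ∘ₗ φ, y.1.injective.comp h.1, by
    rw [← h.2]
    exact pb_smul (hG y.2) fun x => rfl⟩ : FrP Φ P)) _ fun ψ => ?_).symm
  obtain ⟨ψ, hψ⟩ := ψ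
  obtain ⟨g, hg, hgg⟩ := tr ψ hψ φ' h'
  refine Nat.card_congr
    { toFun := fun y => ⟨⟨g, hg⟩ * y.1, fun x => ?_⟩
      invFun := fun y => ⟨⟨g, hg⟩⁻¹ * y.1, ?_⟩
      left_inv := fun y => by simp
      right_inv := fun y => by simp }
  · have h1 := LinearMap.congr_fun (congrArg Subtype.val y.2) x
    rw [← hgg]
    exact congrArg g h1
  · apply Subtype.ext
    ext x
    have h1 := y.2 x
    rw [← hgg] at h1
    show (g⁻¹ : V ≃ₗ[F] V) ((y.1 : V ≃ₗ[F] V) (φ x)) = _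
    rw [h1]
    exact g.symm_apply_apply _

/-- transitivity gives `Wc 1` -/
theorem wc_of_tr [Finite V] [Finite X] (hG : G ≤ Φ.Iso) {ψ : X →ₗ[F] V} (hψ : Function.Injective ψ)
    (tr : ∀ φ ∈ FrP Φ (pb Φ ψ), ∀ φ' ∈ FrP Φ (pb Φ ψ), ∃ g ∈ G, ∀ x, g (φ x) = φ' x) : Wc 1 Φ G ψ := by
  intro ψ'
  by_cases h : ∃ g ∈ G, ∀ x, g (ψ x) = ψ' x
  · obtain ⟨g, hg, hgg⟩ := h
    have h1 : ψ' ∈ FrP Φ (pb Φ ψ) := by
      refine ⟨?_, pb_smul (hG hg) hgg⟩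
      intro a b hab
      rw [← hgg, ← hgg] at hab
      exact hψ (g.injective hab)
    have h2 := card_tr hG tr ⟨hψ, rfl⟩ h1
    have h3 : Nat.card {g : V ≃ₗ[F] V // g ∈ G ∧ ∀ x, g (ψ x) = ψ' x} =
        Nat.card {y : G // ∀ x, (y : V ≃ₗ[F] V) (ψ x) = ψ' x} :=
      Nat.card_congr
        { toFun := fun y => ⟨⟨y.1, y.2.1⟩, y.2.2⟩
          invFun := fun y => ⟨y.1, y.1.2, y.2⟩
          left_inv := fun _ => rfl
          right_inv := fun _ => rfl }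
    rw [h3, one_mul]
    exact h2.le
  · have : IsEmpty {g : V ≃ₗ[F] V // g ∈ G ∧ ∀ x, g (ψ x) = ψ' x} := ⟨fun y => h ⟨y.1, y.2⟩⟩
    rw [Nat.card_of_isEmpty (α := {g : V ≃ₗ[F] V // g ∈ G ∧ ∀ x, g (ψ x) = ψ' x}), mul_zero]
    exact Nat.zero_le _

/-- the fibres of the general count -/
theorem fib_le [Finite V] [Finite X] {c : ℕ} {Z : Set (X →ₗ[F] V)}
    (hZ : ∀ ψ ∈ Z, Function.Injective ψ ∧ Wc c Φ G ψ) (P : (X → X → F) × (X → F)) (m : X ≃ₗ[F] X) :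
    Nat.card (Σ χ : {χ : X →ₗ[F] V // χ ∈ Z ∧ pb Φ χ = P}, {g : V ≃ₗ[F] V // g ∈ G ∧ ∀ x, g (χ.1 x) = χ.1 (m x)}) ≤
      c * Nat.card G := by
  classical
  have : Finite (X →ₗ[F] V) := finite_hom
  have : Finite (V ≃ₗ[F] V) := Cfsg.Agent.H50.RG.finite_equiv
  have := Fintype.ofFinite {χ : X →ₗ[F] V // χ ∈ Z ∧ pb Φ χ = P}
  rcases isEmpty_or_nonempty {χ : X →ₗ[F] V // χ ∈ Z ∧ pb Φ χ = P} with he | ⟨⟨χ₀, hχ₀, hP⟩⟩
  · rw [Nat.card_of_isEmpty]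
    exact Nat.zero_le _
  set A := Nat.card {χ : X →ₗ[F] V // Function.Injective χ ∧ pb Φ χ = P} with hA
  have hA0 : 0 < A := by
    have : Nonempty {χ : X →ₗ[F] V // Function.Injective χ ∧ pb Φ χ = P} := ⟨⟨χ₀, (hZ _ hχ₀).1, hP⟩⟩
    exact Nat.card_pos
  refine Nat.le_of_mul_le_mul_left ?_ hA0
  rw [Nat.card_sigma, Finset.mul_sum]
  calc ∑ χ : {χ : X →ₗ[F] V // χ ∈ Z ∧ pb Φ χ = P}, A * Nat.card {g : V ≃ₗ[F] V // g ∈ G ∧ ∀ x, g (χ.1 x) = χ.1 (m x)} ≤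
      ∑ _χ : {χ : X →ₗ[F] V // χ ∈ Z ∧ pb Φ χ = P}, c * Nat.card G := by
        refine Finset.sum_le_sum fun χ _ => ?_
        have h1 := (hZ _ χ.2.1).2 (χ.1 ∘ₗ (m : X →ₗ[F] X))
        rw [χ.2.2] at h1
        exact h1
    _ = Nat.card {χ : X →ₗ[F] V // χ ∈ Z ∧ pb Φ χ = P} * (c * Nat.card G) := by
        rw [Finset.sum_const, Finset.card_univ, smul_eq_mul, ← Nat.card_eq_fintype_card]
    _ ≤ A * (c * Nat.card G) := by
        refine Nat.mul_le_mul_right _ ?_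
        exact Nat.card_le_card_of_injective (fun χ => ⟨χ.1, (hZ _ χ.2.1).1, χ.2.2⟩) fun a b h =>
          Subtype.ext (congrArg (fun z : {χ : X →ₗ[F] V // Function.Injective χ ∧ pb Φ χ = P} => z.1) h)

/-- general count -/
theorem gc [Finite F] [Finite V] [Finite X] {c : ℕ} {Z : Set (X →ₗ[F] V)}
    (hZ : ∀ ψ ∈ Z, Function.Injective ψ ∧ Wc c Φ G ψ) (T : Set (((X → X → F) × (X → F)) × (X ≃ₗ[F] X))) :
    Nat.card (Σ y : G, {ψ : X →ₗ[F] V // ψ ∈ Z ∧ ∃ m, (pb Φ ψ, m) ∈ T ∧ ∀ x, (y : V ≃ₗ[F] V) (ψ x) = ψ (m x)}) ≤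
      c * Nat.card G * Nat.card T := by
  classical
  have : Finite (X →ₗ[F] V) := finite_hom
  have : Finite (V ≃ₗ[F] V) := Cfsg.Agent.H50.RG.finite_equiv
  have : Finite (X ≃ₗ[F] X) := Cfsg.Agent.H50.RG.finite_equiv
  refine card_le_of_fiber (fun a : Σ y : G, {ψ : X →ₗ[F] V // ψ ∈ Z ∧ ∃ m, (pb Φ ψ, m) ∈ T ∧
    ∀ x, (y : V ≃ₗ[F] V) (ψ x) = ψ (m x)} => (⟨(pb Φ a.2.1, a.2.2.2.choose), a.2.2.2.choose_spec.1⟩ : T)) _ ?_
  rintro ⟨⟨P, m⟩, hT⟩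
  refine le_trans ?_ (fib_le (G := G) hZ P m)
  refine Nat.card_le_card_of_injective (fun a => ⟨⟨a.1.2.1, a.1.2.2.1, ?_⟩, ⟨a.1.1, a.1.1.2, fun x => ?_⟩⟩) ?_
  · exact congrArg (fun z : T => z.1.1) a.2
  · have h1 : a.1.2.2.2.choose = m := congrArg (fun z : T => z.1.2) a.2
    exact (a.1.2.2.2.choose_spec.2 x).trans (congrArg (fun t : X ≃ₗ[F] X => a.1.2.1 (t x)) h1)
  · rintro ⟨⟨⟨y, hy⟩, ψ, hψ⟩, h⟩ ⟨⟨⟨y', hy'⟩, ψ', hψ'⟩, h'⟩ hh
    simp only [Sigma.mk.injEq, Subtype.mk.injEq] at hh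
    obtain ⟨rfl, h2⟩ := hh
    have h3 := congrArg Subtype.val (eq_of_heq h2)
    simp only at h3
    subst h3
    rfl

/-- the subspaces spanned by the frames `φ` with pull back `P` and `y φ = φ m`, `m ∈ S` -/
def AP (Φ : Frm F V) (P : (X → X → F) × (X → F)) (y : V ≃ₗ[F] V) (S : Set (X ≃ₗ[F] X)) : Set (Submodule F V) :=
  {A | ∃ φ ∈ FrP Φ P, LinearMap.range φ = A ∧ Ad y S φ}

theorem finite_sub [Finite V] : Finite (Submodule F V) :=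
  Finite.of_injective (fun A : Submodule F V => (A : Set V)) SetLike.coe_injective

/-- first moment, frames -/
theorem first [Finite V] [Finite X] (hG : G ≤ Φ.Iso) {P : (X → X → F) × (X → F)}
    (tr : ∀ φ ∈ FrP Φ P, ∀ φ' ∈ FrP Φ P, ∃ g ∈ G, ∀ x, g (φ x) = φ' x) (hne : (FrP Φ P).Nonempty) {S : Set (X ≃ₗ[F] X)}
    (hS : ∀ m ∈ S, IsoP P m) :
    Nat.card (Σ y : G, {φ : X →ₗ[F] V // φ ∈ FrP Φ P ∧ Ad (y : V ≃ₗ[F] V) S φ}) = Nat.card G * Nat.card S := by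
  classical
  have : Finite (X →ₗ[F] V) := finite_hom
  have : Finite (V ≃ₗ[F] V) := Cfsg.Agent.H50.RG.finite_equiv
  have : Finite (X ≃ₗ[F] X) := Cfsg.Agent.H50.RG.finite_equiv
  have e1 : Nat.card (Σ y : G, {φ : X →ₗ[F] V // φ ∈ FrP Φ P ∧ Ad (y : V ≃ₗ[F] V) S φ}) =
      Nat.card (Σ p : FrP Φ P × S, {y : G // ∀ x, (y : V ≃ₗ[F] V) (p.1.1 x) = p.1.1 (p.2.1 x)}) := by
    refine Nat.card_congr
      { toFun := fun a => ⟨(⟨a.2.1, a.2.2.1⟩, ⟨a.2.2.2.choose, a.2.2.2.choose_spec.1⟩), a.1, ?_⟩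
        invFun := fun b => ⟨b.2.1, b.1.1.1, b.1.1.2, b.1.2.1, b.1.2.2, fun x => ?_⟩
        left_inv := fun a => rfl
        right_inv := ?_ }
    · exact fun x => a.2.2.2.choose_spec.2 x
    · exact b.2.2 x
    · rintro ⟨⟨φ, m⟩, y, hy⟩
      have hA : Ad (y : V ≃ₗ[F] V) S φ.1 := ⟨m.1, m.2, hy⟩
      have key : (⟨hA.choose, hA.choose_spec.1⟩ : S) = m := by
        apply Subtype.ext
        ext x
        apply φ.2.1
        show φ.1 (hA.choose x) = φ.1 (m.1 x)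
        rw [← hA.choose_spec.2 x]
        exact hy x
      have key' : ∀ (m' : S) (hm' : m' = m) (h' : ∀ x, (y : V ≃ₗ[F] V) (φ.1 x) = φ.1 (m'.1 x)),
          (⟨(φ, m'), y, h'⟩ : Σ p : FrP Φ P × S, {y : G // ∀ x, (y : V ≃ₗ[F] V) (p.1.1 x) = p.1.1 (p.2.1 x)}) =
            ⟨(φ, m), y, hy⟩ := by
        rintro m' rfl h'
        rfl
      exact key' _ key _
  have hpos : 0 < Nat.card (FrP Φ P) := by
    have : Nonempty (FrP Φ P) := hne.to_subtype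
    exact Nat.card_pos
  have e2 : Nat.card (FrP Φ P) * Nat.card (Σ p : FrP Φ P × S, {y : G // ∀ x, (y : V ≃ₗ[F] V) (p.1.1 x) = p.1.1 (p.2.1 x)}) =
      Nat.card (FrP Φ P) * (Nat.card G * Nat.card S) := by
    have := Fintype.ofFinite (FrP Φ P)
    have := Fintype.ofFinite S
    have hp : ∀ p : FrP Φ P × S, Nat.card (FrP Φ P) * Nat.card {y : G // ∀ x, (y : V ≃ₗ[F] V) (p.1.1 x) = p.1.1 (p.2.1 x)} =
        Nat.card G := fun p => card_tr hG tr p.1.2 (FrP.comp p.1.2 (hS _ p.2.2))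
    rw [Nat.card_sigma, Finset.mul_sum, Finset.sum_congr rfl fun p _ => hp p, Finset.sum_const, Finset.card_univ, Fintype.card_prod, smul_eq_mul, ← Nat.card_eq_fintype_card,
      ← Nat.card_eq_fintype_card]
    ring
  rw [e1]
  exact Nat.eq_of_mul_eq_mul_left hpos e2

/-- closed under conjugation by the isometries of `P` -/
def CjP (P : (X → X → F) × (X → F)) (S : Set (X ≃ₗ[F] X)) : Prop :=
  ∀ m ∈ S, ∀ t : X ≃ₗ[F] X, IsoP P t → t⁻¹ * m * t ∈ S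

theorem card_AP [Finite V] [Finite X] {P : (X → X → F) × (X → F)} {S : Set (X ≃ₗ[F] X)} (hS : CjP P S)
    (y : V ≃ₗ[F] V) :
    Nat.card {φ : X →ₗ[F] V // φ ∈ FrP Φ P ∧ Ad y S φ} = Nat.card (AP Φ P y S) * Nat.card {t : X ≃ₗ[F] X // IsoP P t} := by
  have : Finite (X →ₗ[F] V) := finite_hom
  have : Finite (Submodule F V) := finite_sub
  refine card_eq_of_fib (fun φ : {φ : X →ₗ[F] V // φ ∈ FrP Φ P ∧ Ad y S φ} =>
    (⟨LinearMap.range φ.1, φ.1, φ.2.1, rfl, φ.2.2⟩ : AP Φ P y S)) _ fun A => ?_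
  obtain ⟨A, φ₀, hφ₀, rfl, hAd⟩ := A
  refine (Nat.card_eq_of_bijective (fun t : {t : X ≃ₗ[F] X // IsoP P t} => (⟨⟨φ₀ ∘ₗ (t.1 : X →ₗ[F] X),
    FrP.comp hφ₀ t.2, hAd.comp fun m hm => hS m hm t.1 t.2⟩, ?_⟩ : {a : {φ : X →ₗ[F] V // φ ∈ FrP Φ P ∧ Ad y S φ} //
      (⟨LinearMap.range a.1, a.1, a.2.1, rfl, a.2.2⟩ : AP Φ P y S) =
        ⟨LinearMap.range φ₀, φ₀, hφ₀, rfl, hAd⟩})) ⟨?_, ?_⟩).symm
  · apply Subtype.ext
    show LinearMap.range (φ₀ ∘ₗ (t.1 : X →ₗ[F] X)) = _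
    rw [LinearMap.range_comp, LinearEquiv.range, Submodule.map_top]
  · intro t t' h
    have h1 := congrArg (fun a => a.1.1) h
    apply Subtype.ext
    ext x
    exact hφ₀.1 (LinearMap.congr_fun h1 x)
  · rintro ⟨⟨ψ, hψ⟩, h⟩
    have h1 := congrArg Subtype.val h
    obtain ⟨t, ht⟩ := exists_comp hφ₀.1 hψ.1.1 h1.symm
    have ht' : IsoP P t := by
      rw [← hφ₀.2]
      rw [← pb_comp, ← ht]
      exact hψ.1.2.trans hφ₀.2.symm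
    refine ⟨⟨t, ht'⟩, ?_⟩
    apply Subtype.ext
    apply Subtype.ext
    exact ht.symm

/-- first moment, subspaces -/
theorem sum_AP [Finite V] [Finite X] (hG : G ≤ Φ.Iso) {P : (X → X → F) × (X → F)}
    (tr : ∀ φ ∈ FrP Φ P, ∀ φ' ∈ FrP Φ P, ∃ g ∈ G, ∀ x, g (φ x) = φ' x) (hne : (FrP Φ P).Nonempty) {S : Set (X ≃ₗ[F] X)}
    (hS : ∀ m ∈ S, IsoP P m) (hC : CjP P S) [Fintype G] :
    (∑ y : G, Nat.card (AP Φ P (y : V ≃ₗ[F] V) S)) * Nat.card {t : X ≃ₗ[F] X // IsoP P t} = Nat.card G * Nat.card S := by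
  have : Finite (X →ₗ[F] V) := finite_hom
  rw [← first hG tr hne hS, Nat.card_sigma, Finset.sum_mul]
  exact Finset.sum_congr rfl fun y _ => (card_AP hC _).symm

/-! ### pairs -/

/-- orthogonal sum of pull backs -/
def osum (P : (X → X → F) × (X → F)) (P' : (X' → X' → F) × (X' → F)) :
    ((X × X') → (X × X') → F) × ((X × X') → F) :=
  (fun a b => P.1 a.1 b.1 + P'.1 a.2 b.2, fun a => P.2 a.1 + P'.2 a.2)

theorem pb_coprod {φ : X →ₗ[F] V} {β : X' →ₗ[F] V} (h : ∀ x u, Φ.B (φ x) (β u) = 0) :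
    pb Φ (φ.coprod β) = osum (pb Φ φ) (pb Φ β) := by
  refine Prod.ext ?_ ?_
  · funext a b
    show Φ.B ((φ.coprod β) a) ((φ.coprod β) b) = Φ.B (φ a.1) (φ b.1) + Φ.B (β a.2) (β b.2)
    rw [LinearMap.coprod_apply, LinearMap.coprod_apply, Φ.add_left, Φ.add_right, Φ.add_right, h, Φ.refl _ _ (h b.1 a.2)]
    ring
  · funext a
    show Φ.q ((φ.coprod β) a) = Φ.q (φ a.1) + Φ.q (β a.2)
    rw [LinearMap.coprod_apply]
    exact Φ.q_add _ _ (h _ _)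

/-- pairs of frames: `φ` of type `P`, `y φ = φ m`, `m ∈ S`; `β` orthogonal to `φ`, `y β = β m'`, `(pb β, m') ∈ T` -/
def PF (Φ : Frm F V) (P : (X → X → F) × (X → F)) (S : Set (X ≃ₗ[F] X))
    (T : Set (((X' → X' → F) × (X' → F)) × (X' ≃ₗ[F] X'))) (y : V ≃ₗ[F] V) : Set ((X →ₗ[F] V) × (X' →ₗ[F] V)) :=
  {z | (z.1 ∈ FrP Φ P ∧ Ad y S z.1) ∧ Function.Injective z.2 ∧ (∀ x u, Φ.B (z.1 x) (z.2 u) = 0) ∧
    ∃ m, (pb Φ z.2, m) ∈ T ∧ ∀ u, y (z.2 u) = z.2 (m u)}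

theorem pairs [Finite F] [Finite V] [Finite X] [Finite X'] {c : ℕ} {P : (X → X → F) × (X → F)}
    {S : Set (X ≃ₗ[F] X)} {T : Set (((X' → X' → F) × (X' → F)) × (X' ≃ₗ[F] X'))}
    (hnd : ∀ φ ∈ FrP Φ P, Φ.NdOn (LinearMap.range φ))
    (hW : ∀ y ∈ G, ∀ z ∈ PF Φ P S T y, Wc c Φ G (z.1.coprod z.2)) [Fintype G] :
    ∑ y : G, Nat.card (PF Φ P S T (y : V ≃ₗ[F] V)) ≤ c * Nat.card G * (Nat.card S * Nat.card T) := by
  classical
  have : Finite (X →ₗ[F] V) := finite_hom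
  have : Finite (X' →ₗ[F] V) := finite_hom
  have : Finite ((X × X') →ₗ[F] V) := finite_hom
  have : Finite (V ≃ₗ[F] V) := Cfsg.Agent.H50.RG.finite_equiv
  have : Finite (X ≃ₗ[F] X) := Cfsg.Agent.H50.RG.finite_equiv
  have : Finite (X' ≃ₗ[F] X') := Cfsg.Agent.H50.RG.finite_equiv
  have : Finite ((X × X') ≃ₗ[F] (X × X')) := Cfsg.Agent.H50.RG.finite_equiv
  let Z : Set ((X × X') →ₗ[F] V) := {ψ | ∃ y ∈ G, ∃ z ∈ PF Φ P S T y, ψ = z.1.coprod z.2}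
  let TT : Set ((((X × X') → (X × X') → F) × ((X × X') → F)) × ((X × X') ≃ₗ[F] (X × X'))) :=
    Set.range fun p : S × T => (osum P p.2.1.1, p.1.1.prodCongr p.2.1.2)
  have hZ : ∀ ψ ∈ Z, Function.Injective ψ ∧ Wc c Φ G ψ := by
    rintro _ ⟨y, hy, z, hz, rfl⟩
    refine ⟨?_, hW y hy z hz⟩
    have hdis : Disjoint (LinearMap.range z.1) (LinearMap.range z.2) := by
      refine (Cfsg.Agent.H440.Bs.perp_disjoint Φ (hnd _ hz.1.1)).mono_right ?_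
      rintro _ ⟨u, rfl⟩
      rw [mem_perp]
      rintro _ ⟨x, rfl⟩
      exact Φ.refl _ _ (hz.2.2.1 x u)
    rw [← LinearMap.ker_eq_bot, LinearMap.ker_coprod_of_disjoint_range _ _ hdis, LinearMap.ker_eq_bot.2 hz.1.1.1,
      LinearMap.ker_eq_bot.2 hz.2.1, Submodule.prod_bot]
  have h1 := gc (G := G) hZ TT
  have h2 : Nat.card TT ≤ Nat.card S * Nat.card T := by
    rw [← Nat.card_prod]
    exact Finite.card_range_le _
  refine le_trans ?_ (h1.trans (Nat.mul_le_mul_left _ h2))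
  rw [Nat.card_sigma]
  refine Finset.sum_le_sum fun y _ => ?_
  refine Nat.card_le_card_of_injective (fun z => ⟨z.1.1.coprod z.1.2, ⟨y, y.2, z.1, z.2, rfl⟩, ?_⟩) ?_
  · obtain ⟨m, hm, hm'⟩ := z.2.1.2
    obtain ⟨m₁, hm₁, hm₁'⟩ := z.2.2.2.2
    refine ⟨m.prodCongr m₁, ⟨(⟨m, hm⟩, ⟨(_, m₁), hm₁⟩), ?_⟩, fun x => ?_⟩
    · rw [pb_coprod z.2.2.2.1, z.2.1.1.2]
    · rw [LinearMap.coprod_apply, map_add, hm', hm₁']
      rfl
  · rintro ⟨⟨φ, β⟩, h⟩ ⟨⟨φ', β'⟩, h'⟩ h4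
    have h5 : φ.coprod β = φ'.coprod β' := congrArg Subtype.val h4
    have h6 : φ = φ' := LinearMap.ext fun x => by
      have := LinearMap.congr_fun h5 (x, 0)
      simpa using this
    have h7 : β = β' := LinearMap.ext fun x => by
      have := LinearMap.congr_fun h5 (0, x)
      simpa using this
    subst h6 h7
    rfl

end Cfsg.Agent.H50.Ux
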