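import Cfsg.Agent.H50.Ux.Uniq

/-!
# UT2 (UX, S5716): the moments (helper50)

* `cross` : mixed moments; `pairB` : pairs of a block and an irreducible subspace of its orthogonal space.
-/

set_option autoImplicit false
set_option linter.unusedSectionVars false

namespace Cfsg.Agent.H50.Ux

open Module Cfsg.Agent.H847.Bs Cfsg.Agent.LieClassical.OrthCore
open Cfsg.Agent.H440.Bs (perp mem_perp mem_perp')
open Cfsg.Agent.H50.RG (Ad exists_m irr_frame)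

variable {F V : Type*} [Field F] [AddCommGroup V] [Module F V]
variable {X : Type*} [AddCommGroup X] [Module F X]
variable {X' : Type*} [AddCommGroup X'] [Module F X']
variable {Φ : Frm F V} {G : Subgroup (V ≃ₗ[F] V)}

/-- mixed moments -/
theorem cross [Finite F] [Finite V] [Finite X] [Finite X'] {P : (X → X → F) × (X → F)}
    {P' : (X' → X' → F) × (X' → F)} {S : Set (X ≃ₗ[F] X)} {S' : Set (X' ≃ₗ[F] X')} (hC : CjP P S) (hC' : CjP P' S')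
    (hnd : ∀ φ ∈ FrP Φ P, Φ.NdOn (LinearMap.range φ))
    (horth : ∀ y ∈ G, ∀ A ∈ AP Φ P y S, ∀ A' ∈ AP Φ P' y S', A' ≤ perp Φ A)
    (hW : ∀ ψ : (X × X') →ₗ[F] V, Function.Injective ψ → Wc 1 Φ G ψ) [Fintype G] :
    (∑ y : G, Nat.card (AP Φ P (y : V ≃ₗ[F] V) S) * Nat.card (AP Φ P' (y : V ≃ₗ[F] V) S')) *
      (Nat.card {t : X ≃ₗ[F] X // IsoP P t} * Nat.card {t : X' ≃ₗ[F] X' // IsoP P' t}) ≤
      Nat.card G * (Nat.card S * Nat.card S') := by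
  classical
  have : Finite (X →ₗ[F] V) := finite_hom
  have : Finite (X' →ₗ[F] V) := finite_hom
  have : Finite (X' ≃ₗ[F] X') := Cfsg.Agent.H50.RG.finite_equiv
  let T : Set (((X' → X' → F) × (X' → F)) × (X' ≃ₗ[F] X')) := {t | t.1 = P' ∧ t.2 ∈ S'}
  have hT : Nat.card T ≤ Nat.card S' :=
    Nat.card_le_card_of_injective (fun t : T => (⟨t.1.2, t.2.2⟩ : S')) fun a b h =>
      Subtype.ext (Prod.ext (a.2.1.trans b.2.1.symm) (congrArg Subtype.val h))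
  have hW' : ∀ y ∈ G, ∀ z ∈ PF Φ P S T y, Wc 1 Φ G (z.1.coprod z.2) := by
    intro y hy z hz
    refine hW _ ?_
    have hdis : Disjoint (LinearMap.range z.1) (LinearMap.range z.2) := by
      refine (Cfsg.Agent.H440.Bs.perp_disjoint Φ (hnd _ hz.1.1)).mono_right ?_
      rintro _ ⟨u, rfl⟩
      rw [mem_perp]
      rintro _ ⟨x, rfl⟩
      exact Φ.refl _ _ (hz.2.2.1 x u)
    rw [← LinearMap.ker_eq_bot, LinearMap.ker_coprod_of_disjoint_range _ _ hdis, LinearMap.ker_eq_bot.2 hz.1.1.1,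
      LinearMap.ker_eq_bot.2 hz.2.1, Submodule.prod_bot]
  have h1 := pairs (G := G) (T := T) hnd hW'
  rw [one_mul] at h1
  refine le_trans ?_ (h1.trans (Nat.mul_le_mul_left _ (Nat.mul_le_mul_left _ hT)))
  rw [Finset.sum_mul]
  refine Finset.sum_le_sum fun y _ => ?_
  have h3 : Nat.card (AP Φ P (y : V ≃ₗ[F] V) S) * Nat.card (AP Φ P' (y : V ≃ₗ[F] V) S') *
      (Nat.card {t : X ≃ₗ[F] X // IsoP P t} * Nat.card {t : X' ≃ₗ[F] X' // IsoP P' t}) =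
      Nat.card ({φ : X →ₗ[F] V // φ ∈ FrP Φ P ∧ Ad (y : V ≃ₗ[F] V) S φ} ×
        {φ : X' →ₗ[F] V // φ ∈ FrP Φ P' ∧ Ad (y : V ≃ₗ[F] V) S' φ}) := by
    rw [Nat.card_prod, card_AP hC, card_AP hC']
    ring
  rw [h3]
  refine Nat.card_le_card_of_injective (fun p => (⟨(p.1.1, p.2.1), p.1.2, p.2.2.1.1, ?_, ?_⟩ :
    PF Φ P S T (y : V ≃ₗ[F] V))) ?_
  · intro x u
    have h4 := horth y y.2 _ ⟨p.1.1, p.1.2.1, rfl, p.1.2.2⟩ _ ⟨p.2.1, p.2.2.1, rfl, p.2.2.2⟩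
      (show p.2.1 u ∈ LinearMap.range p.2.1 from ⟨u, rfl⟩)
    exact Φ.refl _ _ (h4 (p.1.1 x) ⟨x, rfl⟩)
  · obtain ⟨m, hm, h5⟩ := p.2.2.2
    exact ⟨m, ⟨p.2.2.1.2, hm⟩, h5⟩
  · rintro ⟨⟨φ, hφ⟩, ⟨φ', hφ'⟩⟩ ⟨⟨ψ, hψ⟩, ⟨ψ', hψ'⟩⟩ h4
    have h5 : (φ, φ') = (ψ, ψ') := congrArg Subtype.val h4
    obtain ⟨rfl, rfl⟩ := Prod.mk.inj h5
    rfl

/-- the blocks with an irreducible subspace of dimension `k` in the orthogonal space -/
def PB (Φ : Frm F V) (P : (X → X → F) × (X → F)) (S : Set (X ≃ₗ[F] X)) (k : ℕ) (y : V ≃ₗ[F] V) :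
    Set (Submodule F V) :=
  {A | A ∈ AP Φ P y S ∧ ∃ B ≤ perp Φ A, Irr y B ∧ finrank F B = k}

/-- embedded forms with an irreducible isometry -/
def Tk (Φ : Frm F V) (k : ℕ) :
    Set ((((Fin k → F) → (Fin k → F) → F) × ((Fin k → F) → F)) × ((Fin k → F) ≃ₗ[F] (Fin k → F))) :=
  {x | Emb Φ x.1 ∧ IsoP x.1 x.2 ∧ Irr x.2 ⊤}

theorem card_PB [Finite F] [Finite V] [Finite X] (hG : G ≤ Φ.Iso) {P : (X → X → F) × (X → F)} {S : Set (X ≃ₗ[F] X)}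
    (hC : CjP P S) (k : ℕ) {y : V ≃ₗ[F] V} (hy : y ∈ G) :
    Nat.card (PB Φ P S k y) * (Nat.card {t : X ≃ₗ[F] X // IsoP P t} * Nat.card ((Fin k → F) ≃ₗ[F] (Fin k → F))) ≤
      Nat.card (PF Φ P S (Tk Φ k) y) := by
  classical
  have : FiniteDimensional F V := Module.Finite.of_finite
  have : Finite (X →ₗ[F] V) := finite_hom
  have : Finite ((Fin k → F) →ₗ[F] V) := finite_hom
  have hch : ∀ A : PB Φ P S k y, ∃ z : (X →ₗ[F] V) × ((Fin k → F) →ₗ[F] V), (z.1 ∈ FrP Φ P ∧ LinearMap.range z.1 = A.1 ∧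
      Ad y S z.1) ∧ Function.Injective z.2 ∧ LinearMap.range z.2 ≤ perp Φ A.1 ∧ Irr y (LinearMap.range z.2) := by
    rintro ⟨A, ⟨φ, hφ, hr, hA⟩, B, hB, hBi, hBd⟩
    let θ : (Fin k → F) ≃ₗ[F] B := LinearEquiv.ofFinrankEq _ _ (by rw [hBd]; simp)
    have hr' : LinearMap.range (B.subtype ∘ₗ (θ : (Fin k → F) →ₗ[F] B)) = B := by
      rw [LinearMap.range_comp, LinearEquiv.range, Submodule.map_top, Submodule.range_subtype]
    refine ⟨(φ, B.subtype ∘ₗ (θ : (Fin k → F) →ₗ[F] B)), ⟨hφ, hr, hA⟩, B.injective_subtype.comp θ.injective, ?_, ?_⟩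
    · show LinearMap.range (B.subtype ∘ₗ (θ : (Fin k → F) →ₗ[F] B)) ≤ _
      rw [hr']; exact hB
    · show Irr y (LinearMap.range (B.subtype ∘ₗ (θ : (Fin k → F) →ₗ[F] B)))
      rw [hr']; exact hBi
  choose z hz using hch
  rw [← Nat.card_prod, ← Nat.card_prod]
  refine Nat.card_le_card_of_injective (fun q : PB Φ P S k y × ({t : X ≃ₗ[F] X // IsoP P t} ×
    ((Fin k → F) ≃ₗ[F] (Fin k → F))) => (⟨((z q.1).1 ∘ₗ (q.2.1.1 : X →ₗ[F] X),
      (z q.1).2 ∘ₗ (q.2.2 : (Fin k → F) →ₗ[F] (Fin k → F))), ⟨?_, ?_⟩, ?_, ?_, ?_⟩ : PF Φ P S (Tk Φ k) y)) ?_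
  · exact FrP.comp (hz q.1).1.1 q.2.1.2
  · exact (hz q.1).1.2.2.comp fun m hm => hC m hm _ q.2.1.2
  · exact (hz q.1).2.1.comp q.2.2.injective
  · intro x u
    refine Φ.refl _ _ ?_
    refine (hz q.1).2.2.1 ⟨q.2.2 u, rfl⟩ _ ?_
    rw [← (hz q.1).1.2.1]
    exact ⟨_, rfl⟩
  · have hi : Function.Injective ((z q.1).2 ∘ₗ (q.2.2 : (Fin k → F) →ₗ[F] (Fin k → F))) :=
      (hz q.1).2.1.comp q.2.2.injective
    have hr : LinearMap.range ((z q.1).2 ∘ₗ (q.2.2 : (Fin k → F) →ₗ[F] (Fin k → F))) = LinearMap.range (z q.1).2 := by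
      rw [LinearMap.range_comp, LinearEquiv.range, Submodule.map_top]
    obtain ⟨m, hm⟩ := exists_m (y := y) hi (by rw [hr]; exact (hz q.1).2.2.2.inv)
    refine ⟨m, ⟨⟨_, hi, rfl⟩, isoP_of (hG hy) hm, ?_⟩, hm⟩
    rw [irr_frame hi hm, hr]
    exact (hz q.1).2.2.2
  · rintro ⟨A, ⟨t, ht⟩, g⟩ ⟨A', ⟨t', ht'⟩, g'⟩ h
    have h1 : ((z A).1 ∘ₗ (t : X →ₗ[F] X), (z A).2 ∘ₗ (g : (Fin k → F) →ₗ[F] (Fin k → F))) =
        ((z A').1 ∘ₗ (t' : X →ₗ[F] X), (z A').2 ∘ₗ (g' : (Fin k → F) →ₗ[F] (Fin k → F))) := congrArg Subtype.val h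
    obtain ⟨h2, h3⟩ := Prod.mk.inj h1
    have hA : A = A' := by
      apply Subtype.ext
      rw [← (hz A).1.2.1, ← (hz A').1.2.1]
      have e1 := congrArg LinearMap.range h2
      rwa [LinearMap.range_comp, LinearMap.range_comp, LinearEquiv.range, LinearEquiv.range, Submodule.map_top,
        Submodule.map_top] at e1
    subst hA
    have ht1 : t = t' := by
      ext x
      exact (hz A).1.1.1 (LinearMap.congr_fun h2 x)
    have hg1 : g = g' := by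
      refine LinearEquiv.ext fun x => ?_
      exact (hz A).2.1 (LinearMap.congr_fun h3 x)
    subst ht1 hg1
    rfl

/-- pairs of a block and an irreducible subspace on average -/
theorem sum_PB [Finite F] [Finite V] [Finite X] (hG : G ≤ Φ.Iso) {P : (X → X → F) × (X → F)} {S : Set (X ≃ₗ[F] X)}
    (hC : CjP P S) (hnd : ∀ φ ∈ FrP Φ P, Φ.NdOn (LinearMap.range φ)) {c k : ℕ}
    (hW : ∀ y ∈ G, ∀ z ∈ PF Φ P S (Tk Φ k) y, Wc c Φ G (z.1.coprod z.2))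
    (hT : k * Nat.card (Tk Φ k) ≤ 8 * Nat.card ((Fin k → F) ≃ₗ[F] (Fin k → F))) [Fintype G] :
    (∑ y : G, Nat.card (PB Φ P S k (y : V ≃ₗ[F] V))) * (Nat.card {t : X ≃ₗ[F] X // IsoP P t} * k) ≤
      8 * c * Nat.card G * Nat.card S := by
  have : Finite ((Fin k → F) ≃ₗ[F] (Fin k → F)) := Cfsg.Agent.H50.RG.finite_equiv
  have h1 := pairs (G := G) (T := Tk Φ k) hnd hW
  have h2 : (∑ y : G, Nat.card (PB Φ P S k (y : V ≃ₗ[F] V))) * (Nat.card {t : X ≃ₗ[F] X // IsoP P t} *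
      Nat.card ((Fin k → F) ≃ₗ[F] (Fin k → F))) ≤ c * Nat.card G * (Nat.card S * Nat.card (Tk Φ k)) := by
    refine le_trans ?_ h1
    rw [Finset.sum_mul]
    exact Finset.sum_le_sum fun y _ => card_PB hG hC k y.2
  have h3 : 0 < Nat.card ((Fin k → F) ≃ₗ[F] (Fin k → F)) := Nat.card_pos
  refine Nat.le_of_mul_le_mul_right ?_ h3
  calc _ = (∑ y : G, Nat.card (PB Φ P S k (y : V ≃ₗ[F] V))) * (Nat.card {t : X ≃ₗ[F] X // IsoP P t} *
      Nat.card ((Fin k → F) ≃ₗ[F] (Fin k → F))) * k := by ring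
    _ ≤ c * Nat.card G * (Nat.card S * Nat.card (Tk Φ k)) * k := Nat.mul_le_mul_right _ h2
    _ = c * Nat.card G * Nat.card S * (k * Nat.card (Tk Φ k)) := by ring
    _ ≤ c * Nat.card G * Nat.card S * (8 * Nat.card ((Fin k → F) ≃ₗ[F] (Fin k → F))) := Nat.mul_le_mul_left _ hT
    _ = _ := by ring

end Cfsg.Agent.H50.Ux
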