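import Cfsg.Agent.H50.Ux.Stmts
import Cfsg.Agent.H261.Ux.Prim

/-!
# UT2 (UX, S5716): `Ya0` (helper50)
-/

set_option autoImplicit false

namespace Cfsg.Agent.H50.Ux

open Cfsg.Agent.H261.Ux (Bp card_small_Bp)

theorem ya0 : Ya0 := by
  intro L _ _ p f e c hp hf he hL hbig hc hcr
  classical
  have hef : 3 ≤ e * f := by nlinarith
  obtain ⟨N, N', hNN, hNr, hN⟩ := H961.RG.exists_prim hef hp.two_le
  have hNM : 16 * e * (2 * e + 2) ^ 2 ≤ N := by
    have h1 : (4 * (e * f)) * (16 * e * (2 * e + 2) ^ 2) ≤ (4 * (e * f)) * N := by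
      calc (4 * (e * f)) * (16 * e * (2 * e + 2) ^ 2) = 64 * (e * f) * (2 * e + 2) ^ 2 * e := by ring
        _ ≤ _ := hbig
        _ ≤ _ := hN
    exact Nat.le_of_mul_le_mul_left h1 (by omega)
  have hpe : (p ^ f) ^ e = p ^ (e * f) := by rw [← pow_mul, mul_comm f e]
  have hq1 : 1 < (p ^ f) ^ e := by rw [hpe]; exact Nat.one_lt_pow (by omega) hp.one_lt
  have hpos : 0 < (p ^ f) ^ e - 1 := by omega
  have hNq : N ∣ (p ^ f) ^ e - 1 := ⟨N', by rw [hNN, hpe]⟩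
  obtain ⟨d, hd⟩ := hc
  have hc0 : 0 < c := by
    rcases Nat.eq_zero_or_pos c with h0 | h0
    · rw [h0, zero_mul] at hd; omega
    · exact h0
  have hdd : ((p ^ f) ^ e - 1) / c = d := by rw [hd, Nat.mul_div_cancel_left _ hc0]
  rw [hdd] at hcr
  have hcop : Nat.Coprime N d := by
    rw [Nat.coprime_iff_gcd_eq_one]
    by_contra hne
    obtain ⟨r, hr, hrd⟩ := Nat.exists_prime_and_dvd hne
    exact hcr r hr (hNr r hr (hrd.trans (Nat.gcd_dvd_left _ _))) (hrd.trans (Nat.gcd_dvd_right _ _))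
  have hNc : N ∣ c := by
    rw [hd] at hNq
    exact hcop.dvd_of_dvd_mul_right hNq
  obtain ⟨M, hM⟩ := hNc
  have hfin : Finite Lˣ := inferInstance
  have hcardL : Nat.card Lˣ = (p ^ f) ^ e - 1 := by rw [Nat.card_units, hL]
  let C : Subgroup Lˣ := (powMonoidHom c : Lˣ →* Lˣ).ker
  have hmem : ∀ t : Lˣ, t ∈ C ↔ t ^ c = 1 := fun t => Iff.rfl
  have hCcard : Nat.card C = c := by
    have h2 := IsCyclic.card_powMonoidHom_ker (G := Lˣ) c
    rw [hcardL, hd, Nat.gcd_eq_right (Dvd.intro _ rfl)] at h2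
    exact h2
  have hsmall := card_small_Bp C (p := p) (d := e * f) (M := 2 * e + 2) (N := N) (N' := M) (by rw [hCcard, hM]) hNr
  have hsum : Nat.card {u : C // Bp p (e * f) (2 * e + 2) (orderOf u)} +
      Nat.card {u : C // ¬ Bp p (e * f) (2 * e + 2) (orderOf u)} = c := by
    rw [← hCcard, ← Nat.card_sum]
    exact Nat.card_congr (Equiv.sumCompl _)
  have hgood : Nat.card {u : C // Bp p (e * f) (2 * e + 2) (orderOf u)} ≤ Nat.card {t : Lˣ // t ^ c = 1 ∧ ∃ k,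
      2 * e + 1 < k ∧ k ∣ (p ^ f) ^ e - 1 ∧
      (∀ r : ℕ, r.Prime → r ∣ k → orderOf ((p : ℕ) : ZMod r) = e * f) ∧ k ∣ orderOf t} := by
    refine Nat.card_le_card_of_injective (fun u => ⟨u.1.1, u.1.2, ?_⟩) fun u u' h => ?_
    · obtain ⟨k, hk, hkr, hkd⟩ := u.2
      have h1 : orderOf (u.1 : Lˣ) = orderOf u.1 := Subgroup.orderOf_coe _
      refine ⟨k, by omega, ?_, hkr, by rw [h1]; exact hkd⟩
      rw [← hcardL]
      exact (by rw [← h1] at hkd; exact hkd : k ∣ orderOf (u.1 : Lˣ)).trans (orderOf_dvd_natCard _)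
    · exact Subtype.ext (Subtype.ext (congrArg (fun z : {t : Lˣ // t ^ c = 1 ∧ ∃ k,
        2 * e + 1 < k ∧ k ∣ (p ^ f) ^ e - 1 ∧
        (∀ r : ℕ, r.Prime → r ∣ k → orderOf ((p : ℕ) : ZMod r) = e * f) ∧ k ∣ orderOf t} => z.1) h))
  have h4 : 4 * (M * (2 * e + 2) ^ 2) ≤ c := by
    rw [hM]
    calc 4 * (M * (2 * e + 2) ^ 2) = (4 * (2 * e + 2) ^ 2) * M := by ring
      _ ≤ (16 * e * (2 * e + 2) ^ 2) * M := by
        refine Nat.mul_le_mul_right _ (Nat.mul_le_mul_right _ ?_)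
        omega
      _ ≤ N * M := Nat.mul_le_mul_right _ hNM
  omega

end Cfsg.Agent.H50.Ux
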