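import Cfsg.Agent.H50.Ux.UT2Y
import Cfsg.Agent.H50.Ux.YaZ

/-!
# UT2 (UX, S5716) (helper50)
-/

set_option autoImplicit false

namespace Cfsg.Agent.H50.Ux

/-- UT2: all but a small proportion of the elements have a nondegenerate irreducible block -/
theorem ut2 : Cfsg.Agent.H141.Ux.UT2 := ut2_of_ya0 ya0

end Cfsg.Agent.H50.Ux
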