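import Cfsg.Agent.H50.Ux.UT2Of
import Cfsg.Agent.H183.Ux.SpMinus
import Cfsg.Agent.H232.Ux.Ye
import Cfsg.Agent.H450.Ux.YcFour
import Cfsg.Agent.H557.Ux.Yb
import Cfsg.Agent.H557.Ux.YaQ
import Cfsg.Agent.H637.Ux.WittSU
import Cfsg.Agent.H637.Ux.WittSpO
import Cfsg.Agent.H887.Ux.Ya2

/-!
# UT2 (UX, S5716) from `Ya0` (helper50)
-/

set_option autoImplicit false

namespace Cfsg.Agent.H50.Ux

/-- UT2 from `Ya0` -/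
theorem ut2_of_ya0 (h0 : Ya0) : Cfsg.Agent.H141.Ux.UT2 :=
  ut2_of Cfsg.Agent.H232.Ux.ye (Cfsg.Agent.H183.Ux.ya1 h0) (Cfsg.Agent.H887.Ux.ya2 h0) (Cfsg.Agent.H557.Ux.ya3 h0)
    Cfsg.Agent.H557.Ux.yb Cfsg.Agent.H637.Ux.yc1 Cfsg.Agent.H637.Ux.yc2
    (Cfsg.Agent.H637.Ux.yc3 Cfsg.Agent.H450.Ux.yc4)

end Cfsg.Agent.H50.Ux
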