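import Cfsg.Agent.H50.Ux.GC

/-!
# UT2 (UX, S5716): uniqueness and orthogonality of the blocks (helper50)
-/

set_option autoImplicit false
set_option linter.unusedSectionVars false

namespace Cfsg.Agent.H50.Ux

open Module Cfsg.Agent.H847.Bs Cfsg.Agent.LieClassical.OrthCore
open Cfsg.Agent.H440.Bs (perp mem_perp mem_perp' finrank_perp perp_disjoint)
open Cfsg.Agent.H50.RG (Ad irr_frame pow_frame)

variable {F V : Type*} [Field F] [AddCommGroup V] [Module F V] [FiniteDimensional F V]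
variable {Φ : Frm F V} {y : V ≃ₗ[F] V} {E E' B : Submodule F V}

theorem inv_perp (hy : y ∈ Φ.Iso) (h : Inv y E) : Inv y (perp Φ E) := by
  intro v hv
  rw [mem_perp] at hv ⊢
  intro x hx
  obtain ⟨x', hx', rfl⟩ := Cfsg.Agent.H440.Bs.Inv.surj h hx
  rw [hy.1]
  exact hv x' hx'

theorem inv_inf (h : Inv y E) (h' : Inv y E') : Inv y (E ⊓ E') := fun v hv => ⟨h v hv.1, h' v hv.2⟩

theorem inv_sup (h : Inv y E) (h' : Inv y E') : Inv y (E ⊔ E') := by
  intro v hv
  obtain ⟨a, ha, b, hb, rfl⟩ := Submodule.mem_sup.1 hv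
  rw [map_add]
  exact Submodule.add_mem_sup (h a ha) (h' b hb)

/-- irreducible subspaces of different dimensions are orthogonal -/
theorem orth_of_ne (hN : Φ.Nd) (hy : y ∈ Φ.Iso) (h : Irr y E) (h' : Irr y E') (hne : finrank F E ≠ finrank F E') :
    E' ≤ perp Φ E := by
  have key : ∀ {A A' : Submodule F V}, Irr y A → Irr y A' → ¬ A' ≤ perp Φ A → finrank F A' ≤ finrank F A := by
    intro A A' hA hA' hn
    rcases hA'.min (A' ⊓ perp Φ A) inf_le_left (inv_inf hA'.inv (inv_perp hy hA.inv)) with h1 | h1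
    · have h2 := Submodule.finrank_sup_add_finrank_inf_eq A' (perp Φ A)
      rw [h1, finrank_bot, add_zero] at h2
      have h3 := finrank_perp Φ hN A
      have h4 : finrank F ↥(A' ⊔ perp Φ A) ≤ finrank F V := Submodule.finrank_le _
      omega
    · exact absurd (inf_eq_left.1 h1) hn
  by_contra hn
  have hn' : ¬ E ≤ perp Φ E' := by
    intro h1
    apply hn
    intro v hv
    rw [mem_perp']
    intro x hx
    exact (mem_perp Φ).1 (h1 hx) v hv
  exact hne (le_antisymm (key h' h hn') (key h h' hn))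

/-- uniqueness of the good block -/
theorem Gn.unique {e : ℕ} (hN : Φ.Nd) (hy : y ∈ Φ.Iso) (h : Gn Φ e y E) (h' : Irr y E') (hd : finrank F E' = e) :
    E' = E := by
  by_contra hne
  have hinf : E' ⊓ E = ⊥ := by
    rcases h'.min (E' ⊓ E) inf_le_left (inv_inf h'.inv h.irr.inv) with h1 | h1
    · exact h1
    · exact absurd (Submodule.eq_of_le_of_finrank_eq (inf_eq_left.1 h1) (hd.trans h.dim.symm)) hne
  have hdis := perp_disjoint Φ h.nd
  have hle : ∀ {W : Submodule F V}, E ≤ W → W = E ⊔ (W ⊓ perp Φ E) := by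
    intro W hW
    have h1 : E ⊔ perp Φ E = ⊤ := (Cfsg.Agent.H440.Bs.dec_perp Φ hN h.nd).compl.sup_eq_top
    have h2 : E ⊔ (perp Φ E) ⊓ W = (E ⊔ perp Φ E) ⊓ W := sup_inf_assoc_of_le (perp Φ E) hW |>.symm
    rw [inf_comm W, h2, h1, top_inf_eq]
  set D := (E ⊔ E') ⊓ perp Φ E with hD
  have hDinv : Inv y D := inv_inf (inv_sup h.irr.inv h'.inv) (inv_perp hy h.irr.inv)
  have hED : E ⊔ D = E ⊔ E' := (hle le_sup_left).symm
  have hdisD : E ⊓ D = ⊥ := by
    rw [eq_bot_iff, ← hdis.eq_bot]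
    exact inf_le_inf_left _ inf_le_right
  have hdim : finrank F D = e := by
    have h1 := Submodule.finrank_sup_add_finrank_inf_eq E D
    have h2 := Submodule.finrank_sup_add_finrank_inf_eq E' E
    rw [hED, hdisD, finrank_bot] at h1
    rw [hinf, finrank_bot, sup_comm] at h2
    have h3 := h.dim
    omega
  have hirr : Irr y D := by
    refine ⟨hDinv, ?_, fun W hW hWi => ?_⟩
    · intro h0
      have h1 : finrank F D = 0 := by rw [h0, finrank_bot]
      have h2 : finrank F E' = 0 := by omega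
      exact h'.ne_bot (Submodule.finrank_eq_zero.1 h2)
    · rcases h'.min (E' ⊓ (W ⊔ E)) inf_le_left (inv_inf h'.inv (inv_sup hWi h.irr.inv)) with h1 | h1
      · left
        have h2 := Submodule.finrank_sup_add_finrank_inf_eq E' (W ⊔ E)
        rw [h1, finrank_bot] at h2
        have h3 : E' ⊔ (W ⊔ E) ≤ E ⊔ E' := by
          refine sup_le le_sup_right (sup_le ?_ le_sup_left)
          exact hW.trans inf_le_left
        have h4 := Submodule.finrank_mono h3
        have h5 := Submodule.finrank_sup_add_finrank_inf_eq E' E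
        rw [hinf, finrank_bot, sup_comm] at h5
        have h6 : finrank F ↥(W ⊔ E) ≤ finrank F E := by omega
        have h7 : E = W ⊔ E := Submodule.eq_of_le_of_finrank_le le_sup_right h6
        have h8 : W ≤ E := by rw [h7]; exact le_sup_left
        rw [eq_bot_iff, ← hdis.eq_bot]
        exact le_inf h8 (hW.trans inf_le_right)
      · right
        refine le_antisymm hW ?_
        have h2 : E' ≤ W ⊔ E := inf_eq_left.1 h1
        have h3 : D ≤ W ⊔ E := inf_le_left.trans (sup_le le_sup_right h2)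
        have h4 : (W ⊔ E) ⊓ perp Φ E = W := by
          rw [sup_inf_assoc_of_le E (hW.trans inf_le_right), hdis.eq_bot, sup_bot_eq]
        rw [← h4]
        exact le_inf h3 inf_le_right
  exact h.no D inf_le_right hirr ⟨1, by omega⟩

/-- the pair `E`, `B` leaves room -/
theorem room (hN : Φ.Nd) (hy : y ∈ Φ.Iso) {e : ℕ} (hE : Φ.NdOn E) (hd : finrank F E = e) (hB : Irr y B)
    (hBE : B ≤ perp Φ E) (hdv : e ∣ finrank F B) (hn : ¬ e ∣ finrank F V) :
    ¬ perp Φ (E ⊔ B) ≤ E ⊔ B := by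
  intro hle
  have hdis := perp_disjoint Φ hE
  have h1 : perp Φ (E ⊔ B) ≤ perp Φ E := fun v hv x hx => hv x (Submodule.mem_sup_left hx)
  have h2 : perp Φ (E ⊔ B) ≤ perp Φ B := fun v hv x hx => hv x (Submodule.mem_sup_right hx)
  have h3 : perp Φ (E ⊔ B) ≤ B := by
    have h4 : (E ⊔ B) ⊓ perp Φ E = B := by
      rw [sup_comm, sup_inf_assoc_of_le E hBE, hdis.eq_bot, sup_bot_eq]
    exact (le_inf hle h1).trans h4.le
  have h5 : perp Φ (E ⊔ B) = B ⊓ perp Φ B := by
    refine le_antisymm (le_inf h3 h2) ?_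
    rintro v ⟨hv, hv'⟩
    rw [mem_perp]
    intro x hx
    obtain ⟨a, ha, b, hb, rfl⟩ := Submodule.mem_sup.1 hx
    rw [Φ.add_right, (mem_perp Φ).1 (hBE hv) a ha, (mem_perp Φ).1 hv' b hb, add_zero]
  have h6 := finrank_perp Φ hN (E ⊔ B)
  have h7 := Submodule.finrank_sup_add_finrank_inf_eq E B
  have h8 : E ⊓ B = ⊥ := by
    rw [eq_bot_iff, ← hdis.eq_bot]
    exact inf_le_inf_left _ hBE
  rw [h8, finrank_bot, add_zero] at h7
  rw [h5] at h6
  obtain ⟨c, hc⟩ := hdv
  rcases hB.min (B ⊓ perp Φ B) inf_le_left (inv_inf hB.inv (inv_perp hy hB.inv)) with h9 | h9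
  · rw [h9, finrank_bot] at h6
    exact hn ⟨1 + c, by rw [mul_add, mul_one]; omega⟩
  · rw [h9] at h6
    exact hn ⟨1 + 2 * c, by
      have : e * (2 * c) = 2 * (e * c) := by ring
      rw [mul_add, mul_one, this]; omega⟩

end Cfsg.Agent.H50.Ux
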